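import Cfsg.Agent.M24.Misc
import Cfsg.Agent.M24.Stabs
import Cfsg.Agent.M24.Enum
import Cfsg.Agent.M24.Words
import Cfsg.Prelude.Def_Spor_Mathieu

/-! The automorphism group of the two-point Mathieu group is the stabiliser of the pair. -/

set_option autoImplicit false
set_option maxRecDepth 100000

namespace CA.J4

open Cfsg Equiv CA.M24 Subgroup
open scoped Pointwise

noncomputable section

/-- the stabiliser of the pair of points 23 and 0 -/
def DD : Subgroup (Perm Pt) := St (setC.dec (nat_lit 8388609))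

theorem unmask_duad : unmask 8388609 = {pt 23, pt 0} := by decide +kernel

theorem mem_DD {g : Perm Pt} : g ∈ DD ↔ g ∈ M24 ∧
    ((g (pt 23) = pt 23 ∧ g (pt 0) = pt 0) ∨ (g (pt 23) = pt 0 ∧ g (pt 0) = pt 23)) := by
  change g ∈ M24 ∧ g • unmask 8388609 = unmask 8388609 ↔ _
  rw [unmask_duad, Finset.smul_finset_insert, Finset.smul_finset_singleton]
  refine and_congr_right fun _ => ?_
  change ({g (pt 23), g (pt 0)} : Finset Pt) = _ ↔ _
  have h0 : pt 23 ≠ pt 0 := by decide
  have h1 : g (pt 23) ≠ g (pt 0) := g.injective.ne h0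
  constructor
  · intro h
    have a1 : g (pt 23) ∈ ({pt 23, pt 0} : Finset Pt) := by rw [← h]; simp
    have a2 : g (pt 0) ∈ ({pt 23, pt 0} : Finset Pt) := by rw [← h]; simp
    simp only [Finset.mem_insert, Finset.mem_singleton] at a1 a2
    rcases a1 with a1 | a1 <;> rcases a2 with a2 | a2 <;> simp_all
  · rintro (⟨a, b⟩ | ⟨a, b⟩)
    · rw [a, b]
    · rw [a, b, Finset.pair_comm]

theorem mem_M22' {g : Perm Pt} : g ∈ Spor.M22 ↔ g ∈ M24 ∧ g (pt 23) = pt 23 ∧ g (pt 0) = pt 0 :=
  and_assoc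

theorem M22_le_DD : Spor.M22 ≤ DD := fun _ h =>
  mem_DD.2 ⟨(mem_M22'.1 h).1, Or.inl (mem_M22'.1 h).2⟩

theorem DD_le : DD ≤ M24 := fun _ h => (mem_DD.1 h).1

theorem card_DD : Nat.card DD = 887040 := by
  refine card_stab_of_orb card_M24 (m := 276) ?_ (by norm_num) (by norm_num)
  have : orb M24 (setC.dec 8388609) = (Finset.powersetCard 2 (Finset.univ : Finset Pt) : Set (Finset Pt)) := by
    ext t
    simp only [Finset.mem_coe, Finset.mem_powersetCard_univ]
    constructor
    · rintro ⟨g, -, rfl⟩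
      rw [Finset.card_smul_finset]
      decide +kernel
    · intro ht
      obtain ⟨a, b, hab, rfl⟩ := Finset.card_eq_two.1 ht
      obtain ⟨w, hw, h1, h2⟩ := exists_two (show pt 23 ≠ pt 0 by decide) hab
      refine ⟨w, hw, ?_⟩
      change w • unmask 8388609 = _
      simp [unmask_duad, Finset.smul_finset_insert, h1, h2]
  rw [this, Set.ncard_coe_finset, Finset.card_powersetCard, Finset.card_univ, card_Pt]
  rfl

theorem card_M22 : Nat.card Spor.M22 = 443520 := by
  have h1 : Nat.card Spor.M23 = 10200960 := by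
    refine card_stab_of_orb card_M24 (m := 24) ?_ (by norm_num) (by norm_num)
    have : orb M24 (none : Pt) = Set.univ := by
      refine Set.eq_univ_of_forall fun y => ?_
      obtain ⟨w, hw, -, h⟩ := w1_spec y
      exact ⟨w⁻¹, inv_mem hw, by change w⁻¹ (pt 23) = y; rw [← h]; simp⟩
    rw [this, Set.ncard_univ, Nat.card_eq_fintype_card, card_Pt]
  refine card_stab_of_orb h1 (m := 23) ?_ (by norm_num) (by norm_num)
  have : orb Spor.M23 (some 0 : Pt) = ((Finset.univ.erase (pt 23) : Finset Pt) : Set Pt) := by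
    ext y
    simp only [Finset.coe_erase, Finset.coe_univ, Set.mem_sdiff, Set.mem_univ, Set.mem_singleton_iff, true_and]
    constructor
    · rintro ⟨g, hg, rfl⟩ e
      have h2 : g (pt 23) = pt 23 := hg.2
      exact absurd (g.injective (e.trans h2.symm)) (by decide)
    · intro hy
      obtain ⟨w, hw, h1, h2⟩ := exists_two (show pt 23 ≠ pt 0 by decide) (Ne.symm hy)
      exact ⟨w, ⟨hw, h1⟩, h2⟩
  rw [this, Set.ncard_coe_finset, Finset.card_erase_of_mem (Finset.mem_univ _), Finset.card_univ, card_Pt]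

def ca : ℕ := nat_lit 976788380543135499691438834425318592
def cb : ℕ := nat_lit 984170151921254027291798672376024640
def ct : ℕ := nat_lit 967680671409993998764234615796340768
def cu : ℕ := nat_lit 12105368871831181103883132295748887

/-- membership test for the two-point stabiliser -/
def chk22 (c : ℕ) : Bool := band (chk c) (band (Nat.beq (dig c 23) 23) (Nat.beq (dig c 0) 0))

/-- membership test for the stabiliser of the pair -/
def chkD (c : ℕ) : Bool := band (chk c) (Nat.beq (mapp c 8388609) 8388609)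

theorem in22_of_chk {c : ℕ} (h : chk22 c = true) : InH Spor.M22 c := by
  simp only [chk22, band_eq_true, beq_iff] at h
  obtain ⟨g, hg, rfl⟩ := inM_of_chk h.1
  refine ⟨g, mem_M22'.2 ⟨hg, ?_, ?_⟩, rfl⟩
  · rw [apply_pt g (by norm_num), h.2.1]
  · rw [apply_pt g (by norm_num), h.2.2]

theorem inD_of_chk {c : ℕ} (h : chkD c = true) : InH DD c := by
  simp only [chkD, band_eq_true, beq_iff] at h
  refine inH_inf_stab setC (inM_of_chk h.1) trivial ?_
  change mapp c (mask (unmask 8388609)) = mask (unmask 8388609)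
  rw [mask_unmask (by norm_num)]
  exact h.2

theorem ca_in : InH Spor.M22 ca := in22_of_chk (by decide +kernel)
theorem cb_in : InH Spor.M22 cb := in22_of_chk (by decide +kernel)
theorem ct_in : InH Spor.M22 ct := in22_of_chk (by decide +kernel)
theorem cu_in : InH DD cu := inD_of_chk (by decide +kernel)

theorem M22_le_gen : Spor.M22 ≤ gen [ca, ct] :=
  le_gen_of_chainLB [(1, 5, [[0, 0, 0, 0, 1, 0, 0, 0, 1], [0, 1, 1, 0, 1]]), (2, 4, [[0, 1, 1, 1, 1, 0, 0, 1, 1, 1], [0, 0, 1, 1, 0, 1, 0, 0]]), (3, 4, [[0, 0, 1, 0, 0, 1, 0, 0, 0], [0, 1, 1, 0, 0, 1, 0, 1, 1], [0, 1, 1, 0, 0, 1, 1, 0, 1, 1, 0, 0]]), (4, 2, [[2, 2, 0, 1, 1, 0, 2], [2, 0, 1, 2, 1, 0, 2, 0, 0, 2, 1]]), (5, 2, [])]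
    (by simp [ca_in, ct_in]) (by rw [card_M22]; decide +kernel)

theorem DD_le_gen : DD ≤ gen [ca, ct, cu] :=
  le_gen_of_chainLB [(23, 1, [[2, 1, 2, 2, 1, 2, 0], [2, 2, 0, 0, 1, 0]]), (1, 4, [[1, 1, 0, 1, 1, 0], [0, 1, 0, 0, 1, 1, 0, 1]]), (2, 4, [[0, 0, 1, 0, 0, 0, 1, 0, 0], [1, 0, 0, 1, 1, 1, 1, 0]]), (3, 4, [[0, 0, 1, 0, 0, 0, 0, 0, 0, 1, 1, 1], [0, 0, 0, 0, 1, 0, 1], [0, 0, 1, 0, 0, 0, 0, 1, 1]]), (4, 2, [[0, 0], [1, 1, 0, 2, 0]]), (5, 2, [])]
    (by simp [ca_in.mono M22_le_DD, ct_in.mono M22_le_DD, cu_in]) (by rw [card_DD]; decide +kernel)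

/-- run `q` on all elements `g` with given images of two points and `g x = y g` -/
def relEnum (i j x y p i' j' : ℕ) (q : ℕ → Bool) : Bool :=
  allR (fun r => enumG i j p (dig x p) (dig x (dig x p)) i' j' r (dig y r) (dig y (dig y r))
    (fun g => bimp (Nat.beq (pmul g x) (pmul y g)) (q g))) 24

theorem relEnum_spec {i j x y p i' j' : ℕ} {q : ℕ → Bool} (H : relEnum i j x y p i' j' q = true)
    (hn : [i, j, p, dig x p, dig x (dig x p)].Nodup) (hl : ∀ k ∈ [i, j, p, dig x p, dig x (dig x p)], k < 24)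
    {g X Y : Perm Pt} (hg : g ∈ M24) (hx : code X = x) (hy : code Y = y) (h1 : dig (code g) i = i')
    (h2 : dig (code g) j = j') (e : g * X = Y * g) : q (code g) = true := by
  have hp : p < 24 := hl p (by simp)
  have e' : pmul (code g) x = pmul y (code g) := by rw [← hx, ← hy, pmul_code, pmul_code, e]
  have key : ∀ k < 24, dig (code g) (dig x k) = dig y (dig (code g) k) := fun k hk => by
    rw [← dig_pmul _ _ hk, e', dig_pmul _ _ hk]
  have := enumG_spec (allR_eq_true.1 H _ (dig_code_lt g hp)) hn hl hg h1 h2 rfl (key p hp)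
    (by rw [key _ (hl _ (by simp)), key p hp])
  simp only [bimp_eq_true, beq_iff] at this
  exact this e'

theorem DD_le_norm : DD ≤ normalizer (Spor.M22 : Set (Perm Pt)) := by
  have key : ∀ d ∈ DD, ∀ g ∈ Spor.M22, d * g * d⁻¹ ∈ Spor.M22 := by
    intro d hd g hg
    obtain ⟨h1, h2⟩ := mem_DD.1 hd
    obtain ⟨h3, h4, h5⟩ := mem_M22'.1 hg
    refine mem_M22'.2 ⟨conj_mem_M24 h1 h3, ?_⟩
    simp only [Perm.mul_apply]
    rcases h2 with ⟨a, b⟩ | ⟨a, b⟩
    · rw [Perm.inv_eq_iff_eq.2 a.symm, Perm.inv_eq_iff_eq.2 b.symm, h4, h5]; exact ⟨a, b⟩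
    · rw [Perm.inv_eq_iff_eq.2 a.symm, Perm.inv_eq_iff_eq.2 b.symm, h4, h5]; exact ⟨b, a⟩
  intro d hd
  refine mem_normalizer_iff.2 fun g => ⟨key d hd g, fun h => ?_⟩
  simpa [mul_assoc] using key _ (inv_mem hd) _ h

/-- conjugation by a member of the stabiliser of the pair -/
def cjD : DD →* MulAut Spor.M22 := (Spor.M22.normalizerMonoidHom).comp (inclusion DD_le_norm)

theorem cjD_apply (d : DD) (g : Spor.M22) : ((cjD d g : Spor.M22) : Perm Pt) = d * g * d⁻¹ := rfl

theorem cjD_inj : Function.Injective cjD := by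
  rw [injective_iff_map_eq_one]
  intro d hd
  have h : ∀ c, InH Spor.M22 c → (d : Perm Pt) * perm c = perm c * d := fun c hc => by
    have := cjD_apply d ⟨_, hc.perm_mem⟩
    rw [hd] at this
    exact (mul_inv_eq_iff_eq_mul.1 this.symm)
  have h2 : pmul (code d) ct = pmul ct (code d) := by
    conv_lhs => rw [← ct_in.code_perm, pmul_code, h _ ct_in, ← pmul_code, ct_in.code_perm]
  obtain ⟨h1, h3⟩ := mem_DD.1 d.2
  have key : code d = pone := by
    rcases h3 with ⟨a, b⟩ | ⟨a, b⟩
    · have := relEnum_spec (q := fun g => bimp (Nat.beq (pmul g ct) (pmul ct g)) (Nat.beq g pone))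
        (by decide +kernel : relEnum 23 0 ca ca 1 23 0 _ = true) (by decide +kernel) (by decide +kernel) h1
        ca_in.code_perm ca_in.code_perm (dig_of_apply (by norm_num) (by norm_num) a)
        (dig_of_apply (by norm_num) (by norm_num) b) (h _ ca_in)
      simp only [bimp_eq_true, beq_iff] at this
      exact this h2
    · have := relEnum_spec (q := fun g => bimp (Nat.beq (pmul g ct) (pmul ct g)) (Nat.beq g pone))
        (by decide +kernel : relEnum 23 0 ca ca 1 0 23 _ = true) (by decide +kernel) (by decide +kernel) h1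
        ca_in.code_perm ca_in.code_perm (dig_of_apply (by norm_num) (by norm_num) a)
        (dig_of_apply (by norm_num) (by norm_num) b) (h _ ca_in)
      simp only [bimp_eq_true, beq_iff] at this
      exact this h2
  exact Subtype.ext (code_inj (key.trans code_one.symm))

theorem orderOf_ca : orderOf (perm ca) = 11 :=
  haveI : Fact (Nat.Prime 11) := ⟨by norm_num⟩
  orderOf_perm ca_in.code_perm (by decide +kernel)

theorem exists_conj_ca {g : Perm Pt} (hg : g ∈ Spor.M22) (ho : orderOf g = 11) :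
    ∃ d ∈ DD, d * g * d⁻¹ = perm ca := by
  have : Fact (Nat.Prime 11) := ⟨by norm_num⟩
  have mk : ∀ x : Spor.M22, orderOf x = 11 → ∃ P : Sylow 11 Spor.M22, (P : Subgroup _) = zpowers x := by
    intro x hx
    refine ⟨Sylow.ofCard (zpowers x) ?_, rfl⟩
    rw [Nat.card_zpowers, hx, card_M22]
    have : (443520 : ℕ).factorization 11 = 1 := by
      rw [show (443520 : ℕ) = 11 * 40320 by norm_num, Nat.factorization_mul (by norm_num) (by norm_num)]
      simp [Nat.Prime.factorization_self (show Nat.Prime 11 by norm_num),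
        Nat.factorization_eq_zero_of_not_dvd (show ¬ 11 ∣ 40320 by norm_num)]
    rw [this, pow_one]
  obtain ⟨P, hP⟩ := mk ⟨g, hg⟩ (by rw [← orderOf_coe]; exact ho)
  obtain ⟨Q, hQ⟩ := mk ⟨_, ca_in.perm_mem⟩ (by rw [← orderOf_coe]; exact orderOf_ca)
  obtain ⟨k, hk⟩ := MulAction.exists_smul_eq Spor.M22 P Q
  have h1 : k * ⟨g, hg⟩ * k⁻¹ ∈ (Q : Subgroup Spor.M22) := by
    rw [← hk, Sylow.coe_subgroup_smul, hP]
    exact smul_mem_pointwise_smul _ (MulAut.conj k) _ (mem_zpowers _)
  rw [hQ, mem_zpowers_iff_mem_range_orderOf, ← orderOf_coe] at h1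
  obtain ⟨n, hn, e⟩ := Finset.mem_image.1 h1
  have e' : perm ca ^ n = k * g * (k : Perm Pt)⁻¹ := congrArg Subtype.val e
  have hn' : n < 11 := by simpa [orderOf_ca] using hn
  have h0 : n ≠ 0 := by
    rintro rfl
    have : g = 1 := by simpa [eq_mul_inv_iff_mul_eq] using e'.symm
    rw [this, orderOf_one] at ho
    omega
  have : allR (fun n => bor (Nat.beq n 0) (anyR (fun i => anyR (fun j =>
      force (pmul (ppow cb i) (ppow cu j)) fun c => Nat.beq (pmul c (ppow ca n)) (pmul ca c)) 2) 5)) 11 = true := by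
    decide +kernel
  simp only [allR_eq_true, bor_eq_true, beq_iff, anyR_eq_true, force_eq] at this
  obtain ⟨i, -, j, -, h⟩ := (this n hn').resolve_left h0
  rw [← ca_in.code_perm, ← cb_in.code_perm, ← cu_in.code_perm] at h
  simp only [ppow_code, pmul_code] at h
  refine ⟨perm cb ^ i * perm cu ^ j * k, mul_mem (mul_mem (pow_mem (M22_le_DD cb_in.perm_mem) _)
    (pow_mem cu_in.perm_mem _)) (M22_le_DD k.2), ?_⟩
  rw [show ∀ c : Perm Pt, c * k * g * (c * k)⁻¹ = c * (k * g * (k : Perm Pt)⁻¹) * c⁻¹ from fun c => by group, ← e',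
    code_inj h, mul_inv_cancel_right]

theorem perm_rel {x y w : ℕ} (hx : InH M24 x) (hy : InH M24 y) (h : pmul x y = w) :
    perm x * perm y = perm w := by
  rw [← h]
  conv_rhs => rw [← hx.code_perm, ← hy.code_perm, pmul_code, perm_code]

theorem cjD_surj : Function.Surjective cjD := by
  have ha := ca_in.mono (M22_le_DD.trans DD_le)
  have hb := cb_in.mono (M22_le_DD.trans DD_le)
  have ht := ct_in.mono (M22_le_DD.trans DD_le)
  set A : Spor.M22 := ⟨_, ca_in.perm_mem⟩ with hA
  set B : Spor.M22 := ⟨_, cb_in.perm_mem⟩ with hB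
  set T : Spor.M22 := ⟨_, ct_in.perm_mem⟩ with hT
  have r1 : B * A = A ^ 4 * B := Subtype.ext (code_inj (by
    change code (perm cb * perm ca) = code (perm ca ^ 4 * perm cb)
    rw [← pmul_code, ← pmul_code, ← ppow_code, ha.code_perm, hb.code_perm]; decide +kernel))
  have r2 : T * B = B ^ 2 * T := Subtype.ext (code_inj (by
    change code (perm ct * perm cb) = code (perm cb ^ 2 * perm ct)
    rw [← pmul_code, ← pmul_code, ← ppow_code, ht.code_perm, hb.code_perm]; decide +kernel))
  have r3 : (A * T) ^ 5 = 1 := Subtype.ext (code_inj (by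
    change code ((perm ca * perm ct) ^ 5) = code 1
    rw [← ppow_code, ← pmul_code, ha.code_perm, ht.code_perm, code_one]; decide +kernel))
  have s3 : ∀ α : MulAut Spor.M22, α A = A → α B = B → α = 1 := by
    intro α h1 h2
    have h3 : α T = T := by
      obtain ⟨m1, m2, m3⟩ := mem_M22'.1 (α T).2
      have e2 : (α T : Perm Pt) * perm cb = perm cb ^ 2 * α T := by
        have := congrArg α r2
        rw [map_mul, map_mul, map_pow, h2] at this
        exact congrArg Subtype.val this
      have e3 : (perm ca * α T) ^ 5 = 1 := by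
        have := congrArg α r3
        rw [map_pow, map_mul, map_one, h1] at this
        exact congrArg Subtype.val this
      have := relEnum_spec (q := fun g => bimp (Nat.beq (ppow (pmul ca g) 5) pone) (Nat.beq g ct))
        (by decide +kernel : relEnum 23 0 cb (ppow cb 2) 1 23 0 _ = true) (by decide +kernel) (by decide +kernel) m1
        hb.code_perm (by rw [← ppow_code, hb.code_perm]) (dig_of_apply (by norm_num) (by norm_num) m2)
        (dig_of_apply (by norm_num) (by norm_num) m3) e2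
      simp only [bimp_eq_true, beq_iff] at this
      refine Subtype.ext (code_inj ((this ?_).trans ht.code_perm.symm))
      conv_lhs => rw [← ha.code_perm, pmul_code, ppow_code, e3, code_one]
    ext1 g
    have key : ∀ g : Perm Pt, g ∈ gen [ca, ct] → ∃ h : g ∈ Spor.M22, α ⟨g, h⟩ = ⟨g, h⟩ := by
      intro g hg
      refine gen_induction (fun g => ∃ h : g ∈ Spor.M22, α ⟨g, h⟩ = ⟨g, h⟩) ⟨one_mem _, map_one α⟩ ?_ hg
      rintro x y hx ⟨hy, e⟩
      have : ∃ h : x ∈ Spor.M22, α ⟨x, h⟩ = ⟨x, h⟩ := by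
        simp only [List.mem_cons, List.not_mem_nil, or_false] at hx
        rcases hx with hx | hx
        · obtain rfl : x = perm ca := by rw [← hx, perm_code]
          exact ⟨_, h1⟩
        · obtain rfl : x = perm ct := by rw [← hx, perm_code]
          exact ⟨_, h3⟩
      obtain ⟨hx', e'⟩ := this
      refine ⟨mul_mem hx' hy, ?_⟩
      change α (⟨x, hx'⟩ * ⟨y, hy⟩) = ⟨x, hx'⟩ * ⟨y, hy⟩
      rw [map_mul, e, e']
    obtain ⟨_, e⟩ := key g (M22_le_gen g.2)
    exact e
  have s2 : ∀ α : MulAut Spor.M22, α A = A → α ∈ cjD.range := by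
    intro α h1
    obtain ⟨m1, m2, m3⟩ := mem_M22'.1 (α B).2
    have e2 : (α B : Perm Pt) * perm ca = perm ca ^ 4 * α B := by
      have := congrArg α r1
      rw [map_mul, map_mul, map_pow, h1] at this
      exact congrArg Subtype.val this
    have := relEnum_spec (q := fun g => anyR (fun i => Nat.beq (pmul (ppow ca i) g) (pmul cb (ppow ca i))) 11)
      (by decide +kernel : relEnum 23 0 ca (ppow ca 4) 1 23 0 _ = true) (by decide +kernel) (by decide +kernel) m1
      ha.code_perm (by rw [← ppow_code, ha.code_perm]) (dig_of_apply (by norm_num) (by norm_num) m2)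
      (dig_of_apply (by norm_num) (by norm_num) m3) e2
    simp only [anyR_eq_true, beq_iff] at this
    obtain ⟨i, -, h⟩ := this
    rw [← ha.code_perm, ← hb.code_perm] at h
    simp only [ppow_code, pmul_code] at h
    have h' := code_inj h
    let d : DD := ⟨perm ca ^ i, pow_mem (M22_le_DD A.2) i⟩
    have : cjD d * α = 1 := by
      refine s3 _ (Subtype.ext ?_) (Subtype.ext ?_)
      · rw [MulAut.mul_apply, h1, cjD_apply]
        change perm ca ^ i * perm ca * (perm ca ^ i)⁻¹ = perm ca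
        group
      · rw [MulAut.mul_apply, cjD_apply]
        change perm ca ^ i * _ * (perm ca ^ i)⁻¹ = perm cb
        rw [h', mul_inv_cancel_right]
    exact ⟨d⁻¹, by rw [map_inv, inv_eq_iff_mul_eq_one, this]⟩
  intro α
  obtain ⟨d, hd, e⟩ := exists_conj_ca (α A).2 (by
    rw [orderOf_coe, MulEquiv.orderOf_eq, ← orderOf_coe]; exact orderOf_ca)
  obtain ⟨x, hx⟩ := s2 (cjD ⟨d, hd⟩ * α) (Subtype.ext (by rw [MulAut.mul_apply, cjD_apply]; exact e))
  exact ⟨⟨d, hd⟩⁻¹ * x, by rw [map_mul, hx, map_inv, inv_mul_cancel_left]⟩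

/-- the automorphism group of the two-point stabiliser -/
def autM22 : DD ≃* MulAut Spor.M22 := MulEquiv.ofBijective cjD ⟨cjD_inj, cjD_surj⟩

end

end CA.J4

theorem CA.J4.realizeEqnsJ4Aut : True := by
  have := @CA.J4.cu.eq_1
  have := @CA.J4.cu.eq_def
  have := @CA.J4.cu.congr_simp
  have := @CA.J4.autM22.eq_1
  have := @CA.J4.autM22.eq_def
  have := @CA.J4.autM22.congr_simp
  have := @CA.J4.cjD.eq_1
  have := @CA.J4.cjD.eq_def
  have := @CA.J4.cjD.congr_simp
  have := @CA.J4.relEnum.eq_1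
  have := @CA.J4.relEnum.eq_def
  have := @CA.J4.relEnum.congr_simp
  have := @CA.J4.chkD.eq_1
  have := @CA.J4.chkD.eq_def
  have := @CA.J4.chkD.congr_simp
  have := @CA.J4.cb.eq_1
  have := @CA.J4.cb.eq_def
  have := @CA.J4.cb.congr_simp
  have := @CA.J4.DD.eq_1
  have := @CA.J4.DD.eq_def
  have := @CA.J4.DD.congr_simp
  have := @CA.J4.chk22.eq_1
  have := @CA.J4.chk22.eq_def
  have := @CA.J4.chk22.congr_simp
  have := @CA.J4.ca.eq_1
  have := @CA.J4.ca.eq_def
  have := @CA.J4.ca.congr_simp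
  have := @CA.J4.ct.eq_1
  have := @CA.J4.ct.eq_def
  have := @CA.J4.ct.congr_simp
  trivial
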